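import Mathlib

/-! helper92: vocabulary for Scott's lemma / Ree's theorem on permutations (row S5529). -/

set_option autoImplicit false

namespace Cfsg.Agent.Lib.Helper92.Ree

/-- the action of a permutation on rational functions: `(T g v) a = v (g a)` -/
noncomputable def T {α : Type*} (g : Equiv.Perm α) : (α → ℚ) →ₗ[ℚ] (α → ℚ) :=
  LinearMap.funLeft ℚ ℚ (g : α → α)

theorem T_apply {α : Type*} (g : Equiv.Perm α) (v : α → ℚ) (a : α) : T g v a = v (g a) := rfl

/-- the rank of `1 - T g` -/
noncomputable def rk {α : Type*} (g : Equiv.Perm α) : ℕ :=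
  Module.finrank ℚ ↥(LinearMap.range (LinearMap.id - T g))

end Cfsg.Agent.Lib.Helper92.Ree
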