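import Mathlib
import Cfsg.Agent.Lib.Helper7.M24Fix
import Cfsg.Agent.Lib.Helper86.MathieuEq
import Cfsg.Agent.Lib.Helper92.Ree.Defs

set_option autoImplicit false

namespace Cfsg.Agent.Lib.Helper92.Ree

open Cfsg Cfsg.Agent.Lib.Helper27 Cfsg.Agent.Lib.Helper7

/-- [CJ] -/
theorem card_fixedPts_conj (g h : Equiv.Perm GolayPt) :
    (fixedPts (h * g * h⁻¹)).card = (fixedPts g).card := by
  symm
  refine Finset.card_bij (fun a _ => h a) ?_ ?_ ?_
  · intro a ha
    rw [mem_fixedPts] at ha ⊢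
    simp [Equiv.Perm.mul_apply, ha]
  · intro a _ b _ hab
    exact h.injective hab
  · intro b hb
    rw [mem_fixedPts] at hb
    refine ⟨h⁻¹ b, ?_, by simp⟩
    rw [mem_fixedPts]
    have : h (g (h⁻¹ b)) = b := by simpa [Equiv.Perm.mul_apply] using hb
    have h2 : h⁻¹ (h (g (h⁻¹ b))) = h⁻¹ b := by rw [this]
    simpa using h2

end Cfsg.Agent.Lib.Helper92.Ree
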