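import Mathlib
import Cfsg.Agent.Lib.Helper92.Ree.Defs

set_option autoImplicit false

namespace Cfsg.Agent.Lib.Helper92.Ree

/-- [CY1] invariant functions: at least one dimension per orbit -/
theorem card_orbits_le {α : Type*} [Fintype α] [DecidableEq α] (g : Equiv.Perm α) :
    Nat.card (MulAction.orbitRel.Quotient (Subgroup.zpowers g) α)
      ≤ Module.finrank ℚ ↥(LinearMap.ker (LinearMap.id - T g)) := by
  classical
  haveI : Fintype (MulAction.orbitRel.Quotient (Subgroup.zpowers g) α) := Fintype.ofFinite _
  let mk : α → MulAction.orbitRel.Quotient (Subgroup.zpowers g) α := fun a => Quotient.mk'' a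
  have hmk : Function.Surjective mk := Quotient.mk''_surjective
  have hg : ∀ a, mk (g a) = mk a := by
    intro a
    apply Quotient.sound'
    show g a ∈ MulAction.orbit (Subgroup.zpowers g) a
    exact ⟨⟨g, Subgroup.mem_zpowers g⟩, rfl⟩
  let F : (MulAction.orbitRel.Quotient (Subgroup.zpowers g) α → ℚ) →ₗ[ℚ]
      ↥(LinearMap.ker (LinearMap.id - T g)) :=
    LinearMap.codRestrict _ (LinearMap.funLeft ℚ ℚ mk) (by
      intro w
      rw [LinearMap.mem_ker]
      ext a
      simp only [LinearMap.sub_apply, LinearMap.id_apply, Pi.sub_apply, T_apply,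
        LinearMap.funLeft_apply, hg, sub_self, Pi.zero_apply])
  have hF : Function.Injective F := by
    intro w w' h
    have h1 : LinearMap.funLeft ℚ ℚ mk w = LinearMap.funLeft ℚ ℚ mk w' := congrArg Subtype.val h
    exact LinearMap.funLeft_injective_of_surjective ℚ ℚ mk hmk h1
  have h2 := LinearMap.finrank_le_finrank_of_injective hF
  rw [Module.finrank_fintype_fun_eq_card] at h2
  rw [Nat.card_eq_fintype_card]
  exact h2

end Cfsg.Agent.Lib.Helper92.Ree
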