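import Mathlib
import Cfsg.Agent.Lib.Helper92.Ree.Defs

set_option autoImplicit false

namespace Cfsg.Agent.Lib.Helper92.Ree

/-- [CY2] Burnside for a cyclic group of prime order -/
theorem burnside_prime {α : Type*} [Fintype α] [DecidableEq α] (g : Equiv.Perm α) (p : ℕ)
    (hp : p.Prime) (hg : orderOf g = p) :
    p * Nat.card (MulAction.orbitRel.Quotient (Subgroup.zpowers g) α)
      = Fintype.card α + (p - 1) * (Finset.univ.filter (fun a => g a = a)).card := by
  classical
  haveI : Fact p.Prime := ⟨hp⟩
  haveI : Fintype (MulAction.orbitRel.Quotient (Subgroup.zpowers g) α) := Fintype.ofFinite _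
  have hcard : Fintype.card (Subgroup.zpowers g) = p := by
    rw [Fintype.card_zpowers, hg]
  have hB := MulAction.sum_card_fixedBy_eq_card_orbits_mul_card_group (Subgroup.zpowers g) α
  rw [hcard] at hB
  rw [Nat.card_eq_fintype_card, mul_comm, ← hB]
  -- fixed points of a non-identity element
  have hfix : ∀ h : Subgroup.zpowers g, h ≠ 1 →
      Fintype.card (MulAction.fixedBy α h) = (Finset.univ.filter (fun a => g a = a)).card := by
    rintro ⟨h0, k, rfl⟩ hh
    rw [Fintype.card_subtype]
    congr 1
    ext a
    simp only [Finset.mem_filter, Finset.mem_univ, true_and, MulAction.mem_fixedBy]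
    constructor
    · intro ha
      -- g is a power of h
      have hgen : (⟨g, Subgroup.mem_zpowers g⟩ : Subgroup.zpowers g) ∈
          Subgroup.zpowers (⟨g ^ k, ⟨k, rfl⟩⟩ : Subgroup.zpowers g) := by
        have := mem_zpowers_of_prime_card (G := Subgroup.zpowers g) (p := p)
          (by rw [Nat.card_eq_fintype_card, hcard]) (g := ⟨g ^ k, ⟨k, rfl⟩⟩)
          (g' := ⟨g, Subgroup.mem_zpowers g⟩) hh
        exact this
      obtain ⟨j, hj⟩ := hgen
      have hj' : (g ^ k) ^ j = g := by
        have := congrArg Subtype.val hj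
        simpa using this
      have ha' : (g ^ k) a = a := ha
      rw [← hj']
      exact Equiv.Perm.zpow_apply_eq_self_of_apply_eq_self ha' j
    · intro ha
      show (g ^ k) a = a
      exact Equiv.Perm.zpow_apply_eq_self_of_apply_eq_self ha k
  have h1 : Fintype.card (MulAction.fixedBy α (1 : Subgroup.zpowers g)) = Fintype.card α := by
    rw [Fintype.card_subtype]
    simp
  rw [← Finset.add_sum_erase _ _ (Finset.mem_univ (1 : Subgroup.zpowers g)), h1]
  congr 1
  rw [Finset.sum_congr rfl (fun h hh => hfix h (Finset.ne_of_mem_erase hh)), Finset.sum_const,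
    Finset.card_erase_of_mem (Finset.mem_univ _), Finset.card_univ, hcard, smul_eq_mul]

end Cfsg.Agent.Lib.Helper92.Ree
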