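import Mathlib
import Cfsg.Agent.Lib.Helper92.Ree.Defs
import Cfsg.Agent.Lib.Helper92.Ree.CY1
import Cfsg.Agent.Lib.Helper92.Ree.CY2

set_option autoImplicit false

namespace Cfsg.Agent.Lib.Helper92.Ree

/-- [CY3] the rank of `1 - T g` for `g` of prime order -/
theorem rk_le {α : Type*} [Fintype α] [DecidableEq α] (g : Equiv.Perm α) (p : ℕ)
    (hp : p.Prime) (hg : orderOf g = p) :
    p * rk g + (p - 1) * (Finset.univ.filter (fun a => g a = a)).card
      ≤ (p - 1) * Fintype.card α := by
  have h1 := card_orbits_le g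
  have h2 := burnside_prime g p hp hg
  have h3 := LinearMap.finrank_range_add_finrank_ker (LinearMap.id - T g)
  have h4 : Module.finrank ℚ (α → ℚ) = Fintype.card α := Module.finrank_fintype_fun_eq_card ℚ
  rw [h4] at h3
  unfold rk
  obtain ⟨m, rfl⟩ : ∃ m, p = m + 1 := ⟨p - 1, by have := hp.pos; omega⟩
  simp only [Nat.add_sub_cancel] at h2 ⊢
  generalize Nat.card (MulAction.orbitRel.Quotient (Subgroup.zpowers g) α) = c at h1 h2
  generalize Module.finrank ℚ ↥(LinearMap.ker (LinearMap.id - T g)) = k at h1 h3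
  generalize Module.finrank ℚ ↥(LinearMap.range (LinearMap.id - T g)) = r at h3 ⊢
  generalize (Finset.univ.filter (fun a => g a = a)).card = f at h2 ⊢
  generalize Fintype.card α = n at h2 h3 ⊢
  subst h3
  nlinarith [Nat.mul_le_mul_left (m + 1) h1]

end Cfsg.Agent.Lib.Helper92.Ree
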