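import Mathlib
import Cfsg.Agent.Lib.Helper7.M24Fix
import Cfsg.Agent.Lib.Helper7.MathieuSimple
import Cfsg.Agent.Lib.Helper27.M24Order
import Cfsg.Agent.Lib.Helper86.MathieuEq
import Cfsg.Agent.Lib.Helper92.Ree.Defs

set_option autoImplicit false

namespace Cfsg.Agent.Lib.Helper92.Ree

open Cfsg Cfsg.Agent.Lib.Helper27 Cfsg.Agent.Lib.Helper7

/-- [EV] `M24` consists of even permutations -/
theorem sign_M24 {g : Equiv.Perm GolayPt} (hg : g ∈ M24) : Equiv.Perm.sign g = 1 := by
  haveI : IsSimpleGroup M24 := simple_M24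
  let ψ : M24 →* ℤˣ := Equiv.Perm.sign.comp M24.subtype
  rcases (ψ.normal_ker).eq_bot_or_eq_top with h | h
  · exfalso
    have hinj : Function.Injective ψ := (MonoidHom.ker_eq_bot_iff ψ).1 h
    have := Nat.card_le_card_of_injective ψ hinj
    rw [Nat.card_eq_fintype_card (α := ℤˣ), Fintype.card_units_int, card_M24] at this
    omega
  · have : (⟨g, hg⟩ : M24) ∈ ψ.ker := by rw [h]; exact Subgroup.mem_top _
    exact this

end Cfsg.Agent.Lib.Helper92.Ree
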