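import Mathlib
import Cfsg.Agent.Lib.Helper7.M24Fix
import Cfsg.Agent.Lib.Helper92.Ree.Defs

set_option autoImplicit false

namespace Cfsg.Agent.Lib.Helper92.Ree

open Cfsg Cfsg.Agent.Lib.Helper27 Cfsg.Agent.Lib.Helper7

/-- the number of `k < n` with `f k`, as a kernel-friendly loop -/
def F2a_step (b : Bool) (x : ℕ) : ℕ := Bool.rec x (Nat.succ x) b

/-- the number of `k < n` with `f k`, as a kernel-friendly loop -/
def F2a_cnt (f : ℕ → Bool) (n : ℕ) : ℕ := Nat.rec 0 (fun k ih => F2a_step (f k) ih) n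

theorem F2a_cnt_succ (f : ℕ → Bool) (n : ℕ) :
    F2a_cnt f (n + 1) = if f n = true then F2a_cnt f n + 1 else F2a_cnt f n := by
  show F2a_step (f n) (F2a_cnt f n) = _
  cases f n <;> rfl

theorem F2a_cnt_eq (f : ℕ → Bool) (n : ℕ) :
    F2a_cnt f n = ((Finset.range n).filter (fun k => f k = true)).card := by
  induction n with
  | zero => rfl
  | succ n ih =>
    rw [F2a_cnt_succ, Finset.range_add_one, Finset.filter_insert]
    by_cases h : f n = true
    · rw [if_pos h, if_pos h, Finset.card_insert_of_notMem (by simp), ih]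
    · rw [if_neg h, if_neg h, ih]

/-- the number of fixed indices of a word -/
def F2a_fix (w : List ℕ) : ℕ := F2a_cnt (fun i => Nat.beq (wordEnt w i) i) 24

theorem F2a_card_fixedPts {g : Equiv.Perm GolayPt} {w : List ℕ}
    (h : ∀ p, idx (g p) = wordEnt w (idx p)) : (fixedPts g).card = F2a_fix w := by
  rw [F2a_fix, F2a_cnt_eq]
  apply Finset.card_bij (fun p _ => idx p)
  · intro p hp
    rw [Finset.mem_filter, Finset.mem_range]
    refine ⟨idx_lt p, ?_⟩
    rw [Nat.beq_eq, ← h p, mem_fixedPts.1 hp]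
  · intro p _ q _ hpq
    exact idx_injective hpq
  · intro k hk
    rw [Finset.mem_filter, Finset.mem_range, Nat.beq_eq] at hk
    refine ⟨pt k, ?_, idx_pt hk.1⟩
    rw [mem_fixedPts]
    apply idx_injective
    rw [h, idx_pt hk.1, hk.2]

/-- test: `w ^ n = 1` implies `w = 1` or exactly `c` fixed points -/
def F2a_chk (n c : ℕ) (w : List ℕ) : Bool :=
  bor (Bool.not (powIsOne w n)) (bor (powIsOne w 1) (Nat.beq (F2a_fix w) c))

theorem F2a_of_enum {L : List ℕ} {Ts : List (List ℕ)} (hE : Enum L Ts) (n c : ℕ)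
    (hchk : allWords Ts (F2a_chk n c) = true) {g : Equiv.Perm GolayPt} (hg : g ∈ fixer L)
    (hn : g ^ n = 1) (h1 : g ≠ 1) : (fixedPts g).card = c := by
  obtain ⟨w, hw, hf⟩ := hE.forall (F2a_chk n c) hchk hg
  unfold F2a_chk at hf
  rw [bor_eq, Bool.or_eq_true, bor_eq, Bool.or_eq_true] at hf
  rcases hf with hf | hf | hf
  · rw [check_of_pow_eq_one hw hn] at hf
    simp at hf
  · exact absurd (by simpa using pow_eq_one_of_check hw hf) h1
  · rw [F2a_card_fixedPts hw]
    exact Nat.eq_of_beq_eq_true hf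

/-- [F2a] involutions in the stabiliser of 4 points (order 960) fix 8 points -/
theorem fix_L4 {g : Equiv.Perm GolayPt} (hg : g ∈ fixer L4) (h2 : g ^ 2 = 1) (h1 : g ≠ 1) :
    (fixedPts g).card = 8 :=
  F2a_of_enum enum_L4 2 8 (by decide +kernel) hg h2 h1

end Cfsg.Agent.Lib.Helper92.Ree
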