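import Mathlib
import Cfsg.Agent.Lib.Helper7.M24Fix
import Cfsg.Agent.Lib.Helper86.MathieuEq
import Cfsg.Agent.Lib.Helper92.Ree.Defs
import Cfsg.Agent.Lib.Helper92.Ree.EV
import Cfsg.Agent.Lib.Helper92.Ree.F2a
import Cfsg.Agent.Lib.Helper92.Ree.CJ

set_option autoImplicit false

namespace Cfsg.Agent.Lib.Helper92.Ree

open Cfsg Cfsg.Agent.Lib.Helper27 Cfsg.Agent.Lib.Helper7

/-- [F2] -/
theorem card_fixedPts_2 {g : Equiv.Perm GolayPt} (hg : g ∈ M24) (h : orderOf g = 2) (x : GolayPt)
    (hx : g x = x) : (fixedPts g).card = 8 := by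
  have h1 : g ≠ 1 := ne_one_of_orderOf (by norm_num) h
  have hle := card_fixedPts_le hg h1
  have hpos : 1 ≤ (fixedPts g).card := Finset.card_pos.2 ⟨x, mem_fixedPts.2 hx⟩
  obtain ⟨n, hn⟩ := Equiv.Perm.cycleType_prime_order (σ := g) (by rw [h]; norm_num)
  rw [h] at hn
  have hsum := Equiv.Perm.sum_cycleType g
  rw [hn, Multiset.sum_replicate, smul_eq_mul] at hsum
  have hsign := Equiv.Perm.sign_of_cycleType g
  rw [sign_M24 hg, hn, Multiset.sum_replicate, Multiset.card_replicate, smul_eq_mul] at hsign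
  have heven : Even (n + 1) := by
    by_contra hodd
    rw [Nat.not_even_iff_odd] at hodd
    have h2 : Odd ((n + 1) * 2 + (n + 1)) := by
      obtain ⟨k, hk⟩ := hodd
      exact ⟨3 * k + 1, by omega⟩
    rw [h2.neg_one_pow] at hsign
    exact absurd hsign (by decide)
  have hcompl : (fixedPts g).card + g.support.card = 24 := by
    have h3 : fixedPts g = g.supportᶜ := by
      ext a; simp [mem_fixedPts]
    rw [h3, Finset.card_compl]
    have h4 := Finset.card_le_univ g.support
    have h24 : Fintype.card GolayPt = 24 := by decide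
    omega
  have h4 : 4 ≤ (fixedPts g).card := by
    obtain ⟨k, hk⟩ := heven
    omega
  obtain ⟨t, hts, ht⟩ := Finset.exists_subset_card_eq h4
  let e : Fin 4 ≃ t := (Finset.equivFinOfCardEq ht).symm
  have hne : ∀ i j : Fin 4, i ≠ j → (e i : GolayPt) ≠ e j :=
    fun i j hij he => hij (e.injective (Subtype.ext he))
  have hfix : ∀ i, g (e i) = e i := fun i => mem_fixedPts.1 (hts (e i).2)
  obtain ⟨k, hk, k1, k2, k3, k4⟩ := std4 (hne 0 1 (by decide)) (hne 0 2 (by decide))
    (hne 0 3 (by decide)) (hne 1 2 (by decide)) (hne 1 3 (by decide)) (hne 2 3 (by decide))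
  have hfix' : ∀ p, g p = p → (k * g * k⁻¹) (k p) = k p := by
    intro p hp
    simp [Equiv.Perm.mul_apply, hp]
  have hmem : k * g * k⁻¹ ∈ fixer L4 := by
    apply mem_fixer_of_pts (M24.mul_mem (M24.mul_mem hk hg) (M24.inv_mem hk)) [2, 1, 0, 23]
    intro b hb
    simp only [List.mem_cons, List.not_mem_nil, or_false] at hb
    rcases hb with rfl | rfl | rfl | rfl
    · exact ⟨by norm_num, by rw [← k4]; exact hfix' _ (hfix 3)⟩
    · exact ⟨by norm_num, by rw [← k3]; exact hfix' _ (hfix 2)⟩
    · exact ⟨by norm_num, by rw [← k2]; exact hfix' _ (hfix 1)⟩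
    · exact ⟨by norm_num, by rw [← k1]; exact hfix' _ (hfix 0)⟩
  have hfin := fix_L4 hmem
    (by rw [conj_pow, ← h, pow_orderOf_eq_one]; simp)
    (by
      intro hc
      apply h1
      have h5 : k * g = k := by
        have := congrArg (· * k) hc
        simpa using this
      exact mul_left_cancel (h5.trans (mul_one k).symm))
  rw [card_fixedPts_conj] at hfin
  exact hfin

end Cfsg.Agent.Lib.Helper92.Ree
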