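import Mathlib
import Cfsg.Agent.Lib.Helper7.M24Fix
import Cfsg.Agent.Lib.Helper92.Ree.Defs
import Cfsg.Agent.Lib.Helper92.Ree.F2a

set_option autoImplicit false

namespace Cfsg.Agent.Lib.Helper92.Ree

open Cfsg Cfsg.Agent.Lib.Helper27 Cfsg.Agent.Lib.Helper7

theorem F3a_enum_L3 : Enum L3 [trT3, trT4, trT5, trT6] :=
  enum_cons (b := 2) (by norm_num) inv3 (by decide +kernel) trT3 (by decide +kernel)
    (by decide +kernel) enum_L4

/-- [F3a] elements of order 3 in the stabiliser of 3 points (order 20160) fix 6 points -/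
theorem fix_L3 {g : Equiv.Perm GolayPt} (hg : g ∈ fixer L3) (h3 : g ^ 3 = 1) (h1 : g ≠ 1) :
    (fixedPts g).card = 6 :=
  F2a_of_enum F3a_enum_L3 3 6 (by decide +kernel) hg h3 h1

end Cfsg.Agent.Lib.Helper92.Ree
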