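import Mathlib
import Cfsg.Agent.Lib.Helper7.M24Fix
import Cfsg.Agent.Lib.Helper92.Ree.Defs
import Cfsg.Agent.Lib.Helper92.Ree.F3a

set_option autoImplicit false

namespace Cfsg.Agent.Lib.Helper92.Ree

open Cfsg Cfsg.Agent.Lib.Helper27 Cfsg.Agent.Lib.Helper7

theorem F3_card_conj (g h : Equiv.Perm GolayPt) :
    (fixedPts (h * g * h⁻¹)).card = (fixedPts g).card := by
  symm
  apply Finset.card_bij (fun a _ => h a)
  · intro a ha
    rw [mem_fixedPts] at ha ⊢
    simp [Equiv.Perm.mul_apply, ha]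
  · intro a _ b _ hab
    exact h.injective hab
  · intro b hb
    rw [mem_fixedPts] at hb
    refine ⟨h⁻¹ b, ?_, by simp⟩
    rw [mem_fixedPts]
    have h5 : h (g (h⁻¹ b)) = b := by simpa [Equiv.Perm.mul_apply] using hb
    apply h.injective
    rw [h5]
    simp

/-- [F3] -/
theorem card_fixedPts_3 {g : Equiv.Perm GolayPt} (hg : g ∈ M24) (h : orderOf g = 3) (x : GolayPt)
    (hx : g x = x) : (fixedPts g).card = 6 := by
  have h3 : g ^ 3 = 1 := by rw [← h]; exact pow_orderOf_eq_one g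
  have h1 : g ≠ 1 := by
    rintro rfl
    simp at h
  have : Fact (Nat.Prime 3) := ⟨Nat.prime_three⟩
  have hmod := card_fixedPts_modEq g 3 h3
  have hpos : 0 < (fixedPts g).card := Finset.card_pos.2 ⟨x, mem_fixedPts.2 hx⟩
  have hge : 3 ≤ (fixedPts g).card := by
    unfold Nat.ModEq at hmod
    omega
  obtain ⟨t, hts, ht⟩ := Finset.exists_subset_card_eq hge
  obtain ⟨x1, x2, x3, h12, h13, h23, rfl⟩ := Finset.card_eq_three.1 ht
  have f1 : g x1 = x1 := mem_fixedPts.1 (hts (by simp))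
  have f2 : g x2 = x2 := mem_fixedPts.1 (hts (by simp))
  have f3 : g x3 = x3 := mem_fixedPts.1 (hts (by simp))
  obtain ⟨k, hk, k1, k2, k3⟩ := std3 h12 h13 h23
  have hfix : ∀ p, g p = p → (k * g * k⁻¹) (k p) = k p := by
    intro p hp
    simp [Equiv.Perm.mul_apply, hp]
  have hmem : k * g * k⁻¹ ∈ fixer L3 := by
    apply mem_fixer_of_pts (M24.mul_mem (M24.mul_mem hk hg) (M24.inv_mem hk)) [1, 0, 23]
    intro b hb
    simp only [List.mem_cons, List.not_mem_nil, or_false] at hb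
    rcases hb with rfl | rfl | rfl
    · exact ⟨by norm_num, by rw [← k3]; exact hfix x3 f3⟩
    · exact ⟨by norm_num, by rw [← k2]; exact hfix x2 f2⟩
    · exact ⟨by norm_num, by rw [← k1]; exact hfix x1 f1⟩
  have hc3 : (k * g * k⁻¹) ^ 3 = 1 := by rw [conj_pow, h3]; simp
  have hc1 : k * g * k⁻¹ ≠ 1 := by
    intro hc
    apply h1
    have : g = k⁻¹ * (k * g * k⁻¹) * k := by group
    rw [this, hc]; simp
  rw [← F3_card_conj g k]
  exact fix_L3 hmem hc3 hc1

end Cfsg.Agent.Lib.Helper92.Ree
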