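import Mathlib
import Cfsg.Agent.Lib.Helper92.Ree.Defs

set_option autoImplicit false

namespace Cfsg.Agent.Lib.Helper92.Ree

theorem KE_inv {α : Type*} (g : Equiv.Perm α) (v : α → ℚ)
    (hv : v ∈ LinearMap.ker (LinearMap.id - T g)) (a : α) : v (g a) = v a := by
  rw [LinearMap.mem_ker, LinearMap.sub_apply, LinearMap.id_apply, sub_eq_zero] at hv
  have := congrFun hv a
  rw [T_apply] at this
  exact this.symm

/-- [KE] common invariants: at most two dimensions -/
theorem ker_le {α : Type*} [Fintype α] [DecidableEq α] (x y z : Equiv.Perm α) (o b : α)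
    (htr : ∀ a, a ≠ o → ∃ g ∈ Subgroup.closure {x, y}, g b = a) :
    Module.finrank ℚ ↥(LinearMap.ker (LinearMap.id - T z) ⊓ LinearMap.ker (LinearMap.id - T y)
          ⊓ LinearMap.ker (LinearMap.id - T x)) ≤ 2 := by
  set K := LinearMap.ker (LinearMap.id - T z) ⊓ LinearMap.ker (LinearMap.id - T y)
          ⊓ LinearMap.ker (LinearMap.id - T x) with hK
  have hinv : ∀ v ∈ K, ∀ g ∈ Subgroup.closure {x, y}, ∀ a, v (g a) = v a := by
    intro v hv g hg
    have hx : ∀ a, v (x a) = v a := KE_inv x v hv.2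
    have hy : ∀ a, v (y a) = v a := KE_inv y v hv.1.2
    induction hg using Subgroup.closure_induction with
    | mem s hs =>
      rcases hs with rfl | hs
      · exact hx
      · rw [Set.mem_singleton_iff] at hs; subst hs; exact hy
    | one => intro a; rfl
    | mul s t _ _ hs ht => intro a; rw [Equiv.Perm.mul_apply, hs, ht]
    | inv s _ hs => intro a; have := hs (s⁻¹ a); rw [← Equiv.Perm.mul_apply, mul_inv_cancel, Equiv.Perm.one_apply] at this; exact this.symm
  let φ : K →ₗ[ℚ] (ℚ × ℚ) :=
    ((LinearMap.proj o).prod (LinearMap.proj b)) ∘ₗ K.subtype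
  have hφ : ∀ v : K, φ v = ((v : α → ℚ) o, (v : α → ℚ) b) := fun v => rfl
  have hinj : Function.Injective φ := by
    rw [← LinearMap.ker_eq_bot, LinearMap.ker_eq_bot']
    intro v hv
    rw [hφ, Prod.mk_eq_zero] at hv
    apply Subtype.ext
    funext a
    by_cases ha : a = o
    · rw [ha]; exact hv.1
    · obtain ⟨g, hg, rfl⟩ := htr a ha
      rw [hinv v v.2 g hg b]; exact hv.2
  have := LinearMap.finrank_le_finrank_of_injective hinj
  have h2 : Module.finrank ℚ (ℚ × ℚ) = 2 := by simp
  omega

end Cfsg.Agent.Lib.Helper92.Ree
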