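import Mathlib
import Cfsg.Agent.Lib.Helper92.Ree.Defs

set_option autoImplicit false

namespace Cfsg.Agent.Lib.Helper92.Ree

theorem RA_single {α : Type*} [DecidableEq α] (g : Equiv.Perm α) (c : α) :
    (Pi.single (g c) (1 : ℚ) - Pi.single c (1 : ℚ) : α → ℚ)
      ∈ LinearMap.range (LinearMap.id - T g) := by
  refine ⟨Pi.single (g c) 1, ?_⟩
  funext a
  simp only [LinearMap.sub_apply, LinearMap.id_apply, Pi.sub_apply, T_apply, Pi.single_apply]
  by_cases h : a = c
  · subst h; simp
  · have : g a ≠ g c := fun h' => h (g.injective h')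
    simp [h, this]

/-- [RA] the sum of the ranges has codimension at most two -/
theorem range_ge {α : Type*} [Fintype α] [DecidableEq α] (x y z : Equiv.Perm α) (o b : α)
    (htr : ∀ a, a ≠ o → ∃ g ∈ Subgroup.closure {x, y}, g b = a) :
    Fintype.card α ≤ Module.finrank ℚ ↥(LinearMap.range (LinearMap.id - T z)
      ⊔ LinearMap.range (LinearMap.id - T y) ⊔ LinearMap.range (LinearMap.id - T x)) + 2 := by
  set W := LinearMap.range (LinearMap.id - T z)
      ⊔ LinearMap.range (LinearMap.id - T y) ⊔ LinearMap.range (LinearMap.id - T x) with hW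
  have hxW : LinearMap.range (LinearMap.id - T x) ≤ W := le_sup_right
  have hyW : LinearMap.range (LinearMap.id - T y) ≤ W := le_sup_of_le_left le_sup_right
  have hS : ∀ g ∈ Subgroup.closure {x, y}, ∀ c : α,
      (Pi.single (g c) (1 : ℚ) - Pi.single c (1 : ℚ) : α → ℚ) ∈ W := by
    intro g hg
    induction hg using Subgroup.closure_induction with
    | mem s hs =>
      rcases hs with rfl | hs
      · exact fun c => hxW (RA_single _ c)
      · rw [Set.mem_singleton_iff] at hs; subst hs; exact fun c => hyW (RA_single _ c)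
    | one => intro c; simp
    | mul s t _ _ hs ht =>
      intro c
      have h1 := hs (t c)
      have h2 := ht c
      have := W.add_mem h1 h2
      rw [Equiv.Perm.mul_apply]
      convert this using 1
      abel
    | inv s _ hs =>
      intro c
      have h1 := hs (s⁻¹ c)
      rw [← Equiv.Perm.mul_apply, mul_inv_cancel, Equiv.Perm.one_apply] at h1
      have := W.neg_mem h1
      convert this using 1
      abel
  let φ : (α → ℚ) →ₗ[ℚ] (ℚ × ℚ) :=
    (LinearMap.proj o).prod (∑ a : α, LinearMap.proj a)
  have hφ : ∀ v : α → ℚ, φ v = (v o, ∑ a, v a) := fun v => by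
    simp [φ]
  have hker : LinearMap.ker φ ≤ W := by
    intro v hv
    rw [LinearMap.mem_ker, hφ, Prod.mk_eq_zero] at hv
    have hv' : v = ∑ a, v a • (Pi.single a (1 : ℚ) - Pi.single b (1 : ℚ) : α → ℚ) := by
      funext c
      simp only [Finset.sum_apply, Pi.smul_apply, Pi.sub_apply, smul_eq_mul, mul_sub,
        Finset.sum_sub_distrib, Pi.single_apply, mul_ite, mul_one, mul_zero]
      rw [Finset.sum_ite_eq Finset.univ c v, if_pos (Finset.mem_univ c)]
      by_cases hc : c = b
      · simp [hc, hv.2]
      · simp [hc]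
    rw [hv']
    refine W.sum_mem fun a _ => ?_
    by_cases ha : a = o
    · rw [ha, hv.1, zero_smul]; exact W.zero_mem
    · obtain ⟨g, hg, rfl⟩ := htr a ha
      exact W.smul_mem _ (hS g hg b)
  have r1 := LinearMap.finrank_range_add_finrank_ker φ
  have r2 : Module.finrank ℚ (LinearMap.range φ) ≤ 2 := by
    have := Submodule.finrank_le (LinearMap.range φ)
    simpa using this
  have r3 := Submodule.finrank_mono hker
  have r4 : Module.finrank ℚ (α → ℚ) = Fintype.card α := Module.finrank_fintype_fun_eq_card ℚ
  omega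

end Cfsg.Agent.Lib.Helper92.Ree
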