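import Mathlib
import Cfsg.Agent.Lib.Helper92.Ree.Defs

set_option autoImplicit false

namespace Cfsg.Agent.Lib.Helper92.Ree

/-- [SC] Scott's lemma (abstract linear algebra) -/
theorem scott {V : Type*} [AddCommGroup V] [Module ℚ V] [FiniteDimensional ℚ V]
    (A B C : V →ₗ[ℚ] V) (h : A ∘ₗ B ∘ₗ C = LinearMap.id) :
    Module.finrank ℚ V
      + Module.finrank ℚ ↥(LinearMap.range (LinearMap.id - A) ⊔ LinearMap.range (LinearMap.id - B)
          ⊔ LinearMap.range (LinearMap.id - C))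
    ≤ Module.finrank ℚ ↥(LinearMap.range (LinearMap.id - A))
      + Module.finrank ℚ ↥(LinearMap.range (LinearMap.id - B))
      + Module.finrank ℚ ↥(LinearMap.range (LinearMap.id - C))
      + Module.finrank ℚ ↥(LinearMap.ker (LinearMap.id - A) ⊓ LinearMap.ker (LinearMap.id - B)
          ⊓ LinearMap.ker (LinearMap.id - C)) := by
  have hABC : ∀ v, A (B (C v)) = v := fun v => by
    have := congrArg (fun f : V →ₗ[ℚ] V => f v) h
    simpa using this
  set RA := LinearMap.range (LinearMap.id - A) with hRA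
  set RB := LinearMap.range (LinearMap.id - B) with hRB
  set RC := LinearMap.range (LinearMap.id - C) with hRC
  let β : V →ₗ[ℚ] (RA × RB × RC) :=
    (LinearMap.id - A).rangeRestrict.prod
      ((LinearMap.id - B).rangeRestrict.prod (LinearMap.id - C).rangeRestrict)
  let δ : (RA × RB × RC) →ₗ[ℚ] V :=
    RA.subtype ∘ₗ LinearMap.fst ℚ RA (RB × RC)
      + A ∘ₗ RB.subtype ∘ₗ LinearMap.fst ℚ RB RC ∘ₗ LinearMap.snd ℚ RA (RB × RC)
      + A ∘ₗ B ∘ₗ RC.subtype ∘ₗ LinearMap.snd ℚ RB RC ∘ₗ LinearMap.snd ℚ RA (RB × RC)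
  have hδ : ∀ u : RA × RB × RC, δ u = (u.1 : V) + A (u.2.1 : V) + A (B (u.2.2 : V)) := fun u => rfl
  have hβ1 : ∀ v, ((β v).1 : V) = v - A v := fun v => rfl
  have hβ2 : ∀ v, ((β v).2.1 : V) = v - B v := fun v => rfl
  have hβ3 : ∀ v, ((β v).2.2 : V) = v - C v := fun v => rfl
  -- kernel of β
  have hker : LinearMap.ker β = LinearMap.ker (LinearMap.id - A) ⊓ LinearMap.ker (LinearMap.id - B)
          ⊓ LinearMap.ker (LinearMap.id - C) := by
    ext v
    simp only [LinearMap.mem_ker, Submodule.mem_inf, LinearMap.sub_apply, LinearMap.id_apply]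
    constructor
    · intro hv
      refine ⟨⟨?_, ?_⟩, ?_⟩
      · rw [← hβ1, hv]; rfl
      · rw [← hβ2, hv]; rfl
      · rw [← hβ3, hv]; rfl
    · rintro ⟨⟨h1, h2⟩, h3⟩
      apply Prod.ext
      · apply Subtype.ext; rw [hβ1, h1]; rfl
      · apply Prod.ext
        · apply Subtype.ext; rw [hβ2, h2]; rfl
        · apply Subtype.ext; rw [hβ3, h3]; rfl
  have hle : LinearMap.range β ≤ LinearMap.ker δ := by
    rintro _ ⟨v, rfl⟩
    rw [LinearMap.mem_ker, hδ, hβ1, hβ2, hβ3]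
    simp only [map_sub, hABC]
    abel
  have hW : RA ⊔ RB ⊔ RC ≤ LinearMap.range δ := by
    refine sup_le (sup_le ?_ ?_) ?_
    · intro w hw
      refine ⟨(⟨w, hw⟩, 0, 0), ?_⟩
      rw [hδ]; simp
    · intro w hw
      refine ⟨(⟨w - A w, ⟨w, rfl⟩⟩, ⟨w, hw⟩, 0), ?_⟩
      rw [hδ]; simp
    · intro w hw
      refine ⟨(⟨w - A w, ⟨w, rfl⟩⟩, ⟨w - B w, ⟨w, rfl⟩⟩, ⟨w, hw⟩), ?_⟩
      rw [hδ]; simp
  have r1 := LinearMap.finrank_range_add_finrank_ker β
  have r2 := LinearMap.finrank_range_add_finrank_ker δ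
  have r3 : Module.finrank ℚ (RA × RB × RC)
      = Module.finrank ℚ RA + (Module.finrank ℚ RB + Module.finrank ℚ RC) := by
    rw [Module.finrank_prod, Module.finrank_prod]
  have r4 := Submodule.finrank_mono hle
  have r5 := Submodule.finrank_mono hW
  rw [hker] at r1
  omega

end Cfsg.Agent.Lib.Helper92.Ree
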