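import Mathlib
import Cfsg.Agent.Lib.Helper92.Ree.Defs
import Cfsg.Agent.Lib.Helper92.Ree.SC
import Cfsg.Agent.Lib.Helper92.Ree.KE
import Cfsg.Agent.Lib.Helper92.Ree.RA

/-! helper92: Ree's inequality for three permutations with product 1 generating a group with one fixed point and one
further orbit (from Scott's lemma). -/

set_option autoImplicit false

namespace Cfsg.Agent.Lib.Helper92.Ree

/-- [REE] Ree's inequality (one fixed point + one further orbit) -/
theorem ree {α : Type*} [Fintype α] [DecidableEq α] (x y z : Equiv.Perm α) (hxyz : x * y * z = 1)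
    (o b : α) (htr : ∀ a, a ≠ o → ∃ g ∈ Subgroup.closure {x, y}, g b = a) :
    2 * Fintype.card α ≤ rk x + rk y + rk z + 4 := by
  have hT : T z ∘ₗ T y ∘ₗ T x = LinearMap.id := by
    ext v a
    have h1 : x (y (z a)) = a := by
      have := congrArg (fun s : Equiv.Perm α => s a) hxyz
      simpa using this
    simp only [LinearMap.comp_apply, T_apply, h1, LinearMap.id_apply, LinearMap.coe_single]
  have h1 := scott (T z) (T y) (T x) hT
  have h2 := ker_le x y z o b htr
  have h3 := range_ge x y z o b htr
  have h4 : Module.finrank ℚ (α → ℚ) = Fintype.card α := Module.finrank_fintype_fun_eq_card ℚ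
  unfold rk
  omega

end Cfsg.Agent.Lib.Helper92.Ree
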