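import Mathlib
import Cfsg.Agent.Lib.Helper7.M24Fix
import Cfsg.Agent.Lib.Helper27.M24Order
import Cfsg.Agent.Lib.Helper86.MathieuEq
import Cfsg.Agent.Lib.Helper92.Ree.Defs
import Cfsg.Agent.Lib.Helper92.Ree.REE
import Cfsg.Agent.Lib.Helper92.Ree.CY3
import Cfsg.Agent.Lib.Helper92.Ree.F2
import Cfsg.Agent.Lib.Helper92.Ree.F3

set_option autoImplicit false

namespace Cfsg.Agent.Lib.Helper92.Ree

open Cfsg Cfsg.Agent.Lib.Helper27 Cfsg.Agent.Lib.Helper7

theorem NEG_card : Fintype.card GolayPt = 24 := by decide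

theorem NEG_mem (a : GolayPt) (ha : a ≠ none) : a ∈ unmask 8388607 := by
  revert a
  decide

theorem NEG_M24 {g : Equiv.Perm GolayPt} (hg : g ∈ Cfsg.Spor.M23) : g ∈ M24 := hg.1

theorem NEG_fix {g : Equiv.Perm GolayPt} (hg : g ∈ Cfsg.Spor.M23) : g none = none := hg.2

theorem NEG_rk (g : Equiv.Perm GolayPt) (p : ℕ) (hp : p.Prime) (ho : orderOf g = p) :
    p * rk g + (p - 1) * (fixedPts g).card ≤ (p - 1) * 24 := by
  have := rk_le g p hp ho
  rw [NEG_card] at this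
  exact this

theorem NEG_rk_any {g : Equiv.Perm GolayPt} (hg : g ∈ Cfsg.Spor.M23) (p : ℕ) (hp : p.Prime)
    (ho : orderOf g = p) : rk g ≤ 22 := by
  have h := NEG_rk g p hp ho
  have hf : 1 ≤ (fixedPts g).card :=
    Finset.card_pos.2 ⟨none, mem_fixedPts.2 (NEG_fix hg)⟩
  obtain ⟨s, rfl⟩ : ∃ s, p = s + 1 := ⟨p - 1, by have := hp.pos; omega⟩
  rw [Nat.add_sub_cancel] at h
  by_contra hcon
  have h1 : (s + 1) * 23 ≤ (s + 1) * rk g := Nat.mul_le_mul_left _ (by omega)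
  have h2 : s * 1 ≤ s * (fixedPts g).card := Nat.mul_le_mul_left _ hf
  omega

theorem NEG_rk2 {g : Equiv.Perm GolayPt} (hg : g ∈ Cfsg.Spor.M23) (ho : orderOf g = 2) :
    rk g ≤ 8 := by
  have h := NEG_rk g 2 (by norm_num) ho
  rw [card_fixedPts_2 (NEG_M24 hg) ho none (NEG_fix hg)] at h
  omega

theorem NEG_rk3 {g : Equiv.Perm GolayPt} (hg : g ∈ Cfsg.Spor.M23) (ho : orderOf g = 3) :
    rk g ≤ 12 := by
  have h := NEG_rk g 3 (by norm_num) ho
  rw [card_fixedPts_3 (NEG_M24 hg) ho none (NEG_fix hg)] at h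
  omega

theorem NEG_rk5 {g : Equiv.Perm GolayPt} (hg : g ∈ Cfsg.Spor.M23) (ho : orderOf g = 5) :
    rk g ≤ 16 := by
  have h := NEG_rk g 5 (by norm_num) ho
  rw [card_fixedPts_5 (NEG_M24 hg) ho] at h
  omega

theorem NEG_rk7 {g : Equiv.Perm GolayPt} (hg : g ∈ Cfsg.Spor.M23) (ho : orderOf g = 7) :
    rk g ≤ 18 := by
  have h := NEG_rk g 7 (by norm_num) ho
  rw [card_fixedPts_7 (NEG_M24 hg) ho] at h
  omega

/-- [NEG] the excluded triples -/
theorem no_gen (p q r : ℕ) (hp : p.Prime) (hq : q.Prime) (hr : r.Prime) (x y z : Cfsg.Spor.M23)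
    (hx : orderOf x = p) (hy : orderOf y = q) (hz : orderOf z = r) (hxyz : x * y * z = 1)
    (hgen : Subgroup.closure {x, y} = ⊤)
    (hbad : (p = 2 ∧ q = 3) ∨ (p = 2 ∧ q = 5 ∧ r = 5) ∨ (p = 2 ∧ q = 5 ∧ r = 7) ∨
      (p = 3 ∧ q = 3 ∧ r ≤ 7)) : False := by
  have hx' : orderOf (x : Equiv.Perm GolayPt) = p := by rw [Subgroup.orderOf_coe]; exact hx
  have hy' : orderOf (y : Equiv.Perm GolayPt) = q := by rw [Subgroup.orderOf_coe]; exact hy
  have hz' : orderOf (z : Equiv.Perm GolayPt) = r := by rw [Subgroup.orderOf_coe]; exact hz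
  have hprod : (x : Equiv.Perm GolayPt) * (y : Equiv.Perm GolayPt) * (z : Equiv.Perm GolayPt) = 1 := by
    have := congrArg Subtype.val hxyz
    exact this
  have hcl : ∀ g ∈ Cfsg.Spor.M23,
      g ∈ Subgroup.closure {(x : Equiv.Perm GolayPt), (y : Equiv.Perm GolayPt)} := by
    intro g hg
    have h1 : (⟨g, hg⟩ : Cfsg.Spor.M23) ∈ Subgroup.closure {x, y} := by rw [hgen]; trivial
    have h2 : g ∈ (Subgroup.closure {x, y}).map (Cfsg.Spor.M23).subtype := ⟨_, h1, rfl⟩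
    rw [MonoidHom.map_closure, Set.image_pair] at h2
    exact h2
  have htr : ∀ a : GolayPt, a ≠ none →
      ∃ g ∈ Subgroup.closure {(x : Equiv.Perm GolayPt), (y : Equiv.Perm GolayPt)}, g (pt 0) = a := by
    intro a ha
    obtain ⟨g, hg, hga⟩ := trans1 a (NEG_mem a ha)
    rw [← Cfsg.Agent.Lib.Helper86.M23_eq] at hg
    exact ⟨g, hcl g hg, hga⟩
  have hree := ree (x : Equiv.Perm GolayPt) y z hprod none (pt 0) htr
  rw [NEG_card] at hree
  rcases hbad with ⟨rfl, rfl⟩ | ⟨rfl, rfl, rfl⟩ | ⟨rfl, rfl, rfl⟩ | ⟨rfl, rfl, hr7⟩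
  · have h1 := NEG_rk2 x.2 hx'
    have h2 := NEG_rk3 y.2 hy'
    have h3 := NEG_rk_any z.2 r hr hz'
    omega
  · have h1 := NEG_rk2 x.2 hx'
    have h2 := NEG_rk5 y.2 hy'
    have h3 := NEG_rk5 z.2 hz'
    omega
  · have h1 := NEG_rk2 x.2 hx'
    have h2 := NEG_rk5 y.2 hy'
    have h3 := NEG_rk7 z.2 hz'
    omega
  · have h1 := NEG_rk3 x.2 hx'
    have h2 := NEG_rk3 y.2 hy'
    have h3 : rk (z : Equiv.Perm GolayPt) ≤ 18 := by
      have hr2 := hr.two_le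
      interval_cases r
      · have := NEG_rk2 z.2 hz'; omega
      · have := NEG_rk3 z.2 hz'; omega
      · exact absurd hr (by norm_num)
      · have := NEG_rk5 z.2 hz'; omega
      · exact absurd hr (by norm_num)
      · exact NEG_rk7 z.2 hz'
    omega

end Cfsg.Agent.Lib.Helper92.Ree
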